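import Cfsg.Agent.SylowToolkit.Classes
import Cfsg.Agent.S1009
import Mathlib

/-!
# Twenty-two Sylow 3-subgroups: they would have order 3

Two Sylow 3-subgroups are adjacent when their intersection has index 3 in either. Each has
21, 12 or 3 neighbours. 3: the adjacency classes would partition 22 points into sets of size 4.
21: the Sylow subgroups are abelian and two of them meet trivially. 12: a double count shows
that the neighbourhoods again partition the 22 points, into sets of size 13.
-/

set_option autoImplicit false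

namespace CfsgLib.Sylow22

open CfsgLib.SylowToolkit Subgroup MulAction

local instance fact_three : Fact (Nat.Prime 3) := ⟨Nat.prime_three⟩

variable {G : Type*} [Group G] [Finite G]

/-- Intersection of index 3. -/
def Adj (A B : Sylow 3 G) : Prop := (B : Subgroup G).relIndex A = 3

omit [Finite G] in
theorem not_adj_self (A : Sylow 3 G) : ¬ Adj A A := by simp [Adj]

omit [Finite G] in
theorem Adj.ne {A B : Sylow 3 G} (h : Adj A B) : B ≠ A := fun e => not_adj_self A (e ▸ h : Adj A A)

theorem Adj.symm {A B : Sylow 3 G} (h : Adj A B) : Adj B A :=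
  (relIndex_sylow_comm A B).symm.trans h

omit [Finite G] in
theorem adj_smul (g : G) {A B : Sylow 3 G} : Adj (g • A) (g • B) ↔ Adj A B := by
  rw [Adj, Adj, Sylow.coe_subgroup_smul, Sylow.coe_subgroup_smul, Subgroup.relIndex_pointwise_smul]

theorem adj_comm {A B : Sylow 3 G} : Adj A B ↔ Adj B A := ⟨Adj.symm, Adj.symm⟩

theorem relIndex_cases (hn : Nat.card (Sylow 3 G) = 22) {A B : Sylow 3 G} (h : B ≠ A) :
    (B : Subgroup G).relIndex A = 3 ∨ (B : Subgroup G).relIndex A = 9 := by
  obtain ⟨j, hj⟩ := A.isPGroup'.card_orbit B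
  have hlt : Nat.card (orbit (A : Subgroup G) B) ≤ 22 :=
    hn ▸ Nat.card_le_card_of_injective _ Subtype.val_injective
  rw [hj] at hlt
  rw [card_orbit_sylow] at hj
  rw [hj]
  have : j < 3 := (Nat.pow_lt_pow_iff_right (by norm_num : 1 < 3)).mp (lt_of_le_of_lt hlt (by norm_num))
  interval_cases j
  · exact absurd (by simpa using hj) (relIndex_sylow_ne_one h)
  · norm_num
  · norm_num

theorem not_adj (hn : Nat.card (Sylow 3 G) = 22) {A B : Sylow 3 G} (h : B ≠ A) (ha : ¬ Adj A B) :
    (B : Subgroup G).relIndex A = 9 :=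
  (relIndex_cases hn h).resolve_left ha

/-- A common subgroup of index 3 forces adjacency. -/
theorem adj_of_le {A B : Sylow 3 G} (hne : B ≠ A) (D : Subgroup G) (hD : D.relIndex A = 3)
    (hDB : D ≤ (B : Subgroup G)) : Adj A B := by
  rcases (Fact.out : Nat.Prime 3).eq_one_or_self_of_dvd _
    (hD ▸ relIndex_dvd_of_le_left (A : Subgroup G) hDB) with h | h
  · exact absurd h (relIndex_sylow_ne_one hne)
  · exact h

theorem smul_eq_of_inf {P Q : Sylow 3 G} {d : G} (hd : d ∈ (P : Subgroup G)) :
    d • Q = Q ↔ d ∈ (Q : Subgroup G) :=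
  ⟨mem_of_smul_eq (isPGroup_zpowers_of_mem hd), smul_self_of_mem⟩

/-- An element moving a point by an index-3 orbit: `P ∩ Q` is normal in `P`. -/
theorem adj_normal {P Q : Sylow 3 G} (h : Adj P Q) :
    ((Q : Subgroup G).subgroupOf (P : Subgroup G)).Normal := by
  apply normal_of_index_eq_minFac_card
  obtain ⟨n, hn⟩ := IsPGroup.iff_card.mp P.isPGroup'
  have hidx : ((Q : Subgroup G).subgroupOf (P : Subgroup G)).index = 3 := h
  rw [hidx, hn, Nat.pow_minFac, (Fact.out : Nat.Prime 3).minFac_eq]
  rintro rfl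
  have hd := index_dvd_card ((Q : Subgroup G).subgroupOf (P : Subgroup G))
  rw [hidx, hn] at hd
  norm_num at hd

/-- `P ∩ Q` fixes the whole `P`-orbit of an adjacent `Q`. -/
theorem inf_le_orbit {P Q R : Sylow 3 G} (h : Adj P Q)
    (hR : (Quotient.mk'' R : SylowClasses P) = Quotient.mk'' Q) :
    (P : Subgroup G) ⊓ (Q : Subgroup G) ≤ (R : Subgroup G) := by
  intro d hd
  obtain ⟨y, hy, rfl⟩ := classes_eq_iff.mp hR
  have hn := (adj_normal h).conj_mem ⟨d, hd.1⟩ hd.2 ⟨y⁻¹, inv_mem hy⟩
  rw [mem_subgroupOf] at hn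
  rw [Sylow.coe_subgroup_smul, mem_pointwise_smul_iff_inv_smul_mem]
  simpa [MulAut.smul_def] using hn

section Counting

variable [Fintype (Sylow 3 G)]

open scoped Classical in
/-- Neighbours. -/
noncomputable def nbr (A : Sylow 3 G) : Finset (Sylow 3 G) := Finset.univ.filter (Adj A)

omit [Finite G] in
theorem mem_nbr {A B : Sylow 3 G} : B ∈ nbr A ↔ Adj A B := by simp [nbr]

omit [Finite G] in
theorem card_nbr_eq (A B : Sylow 3 G) [Finite G] : (nbr A).card = (nbr B).card := by
  obtain ⟨g, rfl⟩ := exists_smul_eq G A B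
  refine Finset.card_bij (fun Q _ => g • Q) (fun Q hQ => ?_) (fun a _ b _ h => MulAction.injective g h)
    (fun R hR => ⟨g⁻¹ • R, ?_, smul_inv_smul g R⟩)
  · exact mem_nbr.mpr ((adj_smul g).mpr (mem_nbr.mp hQ))
  · rw [mem_nbr, ← adj_smul g, smul_inv_smul]; exact mem_nbr.mp hR

open scoped Classical in
/-- Closed neighbourhoods that agree along edges partition the points. -/
theorem card_dvd_of_closed (m : ℕ) (hm : ∀ A : Sylow 3 G, (nbr A).card = m)
    (h : ∀ A B : Sylow 3 G, Adj A B → insert B (nbr B) = insert A (nbr A)) :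
    m + 1 ∣ Fintype.card (Sylow 3 G) := by
  let f : Sylow 3 G → Finset (Sylow 3 G) := fun A => insert A (nbr A)
  rw [← Finset.card_univ, Finset.card_eq_sum_card_image f Finset.univ]
  refine Finset.dvd_sum fun C hC => ?_
  obtain ⟨A, -, rfl⟩ := Finset.mem_image.mp hC
  have : Finset.univ.filter (fun B => f B = f A) = f A := by
    ext B
    simp only [Finset.mem_filter, Finset.mem_univ, true_and]
    refine ⟨fun hB => hB ▸ Finset.mem_insert_self B _, fun hB => ?_⟩
    rcases Finset.mem_insert.mp hB with rfl | hB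
    · rfl
    · exact h A B (mem_nbr.mp hB)
  rw [this, Finset.card_insert_of_notMem (fun hh => not_adj_self A (mem_nbr.mp hh)), hm A]

open scoped Classical in
/-- The size of the neighbourhood is 21, 12 or 3. -/
theorem card_nbr_cases (hn : Nat.card (Sylow 3 G) = 22) (A : Sylow 3 G) :
    (nbr A).card = 21 ∨ (nbr A).card = 12 ∨ (nbr A).card = 3 := by
  have := Fintype.ofFinite (SylowClasses A)
  have hΩ : Fintype.card (Sylow 3 G) = 22 := by rw [← Nat.card_eq_fintype_card]; exact hn
  have key : ∀ (s : Finset (Sylow 3 G)) (k : ℕ), (∀ Q ∈ s, Nat.card (orbit (A : Subgroup G) Q) = k) →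
      (∀ Q R, (Quotient.mk'' R : SylowClasses A) = Quotient.mk'' Q → Q ∈ s → R ∈ s) → k ∣ s.card := by
    intro s k hk hinv
    rw [Finset.card_eq_sum_card_image (fun Q => (Quotient.mk'' Q : SylowClasses A)) s]
    refine Finset.dvd_sum fun c hc => ?_
    obtain ⟨Q, hQ, rfl⟩ := Finset.mem_image.mp hc
    rw [← hk Q hQ, Nat.card_coe_set_eq, ← classes_fiber A Q]
    refine dvd_of_eq ?_
    rw [← Set.ncard_coe_finset]
    congr 1
    ext R
    simp only [Finset.coe_filter, Set.mem_setOf_eq]
    exact ⟨fun h => ⟨hinv Q R h hQ, h⟩, fun h => h.2⟩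
  have hinvadj : ∀ Q R, (Quotient.mk'' R : SylowClasses A) = Quotient.mk'' Q → Adj A Q → Adj A R := by
    intro Q R h ha
    obtain ⟨y, hy, rfl⟩ := classes_eq_iff.mp h
    rw [← adj_smul y, smul_self_of_mem hy] at ha
    exact ha
  have h3 : 3 ∣ (nbr A).card := key _ 3
    (fun Q hQ => (card_orbit_sylow A Q).trans (mem_nbr.mp hQ))
    (fun Q R h hQ => mem_nbr.mpr (hinvadj Q R h (mem_nbr.mp hQ)))
  have h9 : 9 ∣ ((insert A (nbr A))ᶜ).card := by
    refine key _ 9 (fun Q hQ => ?_) (fun Q R h hQ => ?_)
    · simp only [Finset.mem_compl, Finset.mem_insert, not_or, mem_nbr] at hQ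
      exact (card_orbit_sylow A Q).trans (not_adj hn hQ.1 hQ.2)
    · simp only [Finset.mem_compl, Finset.mem_insert, not_or, mem_nbr] at hQ ⊢
      refine ⟨fun e => hQ.1 ?_, fun hR => hQ.2 (hinvadj R Q h.symm hR)⟩
      subst e
      exact eq_of_classes_eq_self h.symm
  rw [Finset.card_compl, Finset.card_insert_of_notMem (fun hh => not_adj_self A (mem_nbr.mp hh)), hΩ] at h9
  have hle : (nbr A).card + 1 ≤ 22 := by
    have := Finset.card_le_univ (insert A (nbr A))
    rw [Finset.card_insert_of_notMem (fun hh => not_adj_self A (mem_nbr.mp hh)), hΩ] at this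
    exact this
  omega

end Counting

/-- The 64 graphs on four vertices: only the complete one fits the counts. -/
def edge (v : Fin 6 → Bool) : Fin 4 → Fin 4 → Bool
  | 0, 1 => v 0 | 1, 0 => v 0
  | 0, 2 => v 1 | 2, 0 => v 1
  | 0, 3 => v 2 | 3, 0 => v 2
  | 1, 2 => v 3 | 2, 1 => v 3
  | 1, 3 => v 4 | 3, 1 => v 4
  | 2, 3 => v 5 | 3, 2 => v 5
  | _, _ => false

/-- Degree in the graph. -/
def deg (v : Fin 6 → Bool) (i : Fin 4) : ℕ := (Finset.univ.filter fun j => edge v i j = true).card

theorem only_complete : ∀ v : Fin 6 → Bool,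
    (∀ i j : Fin 4, i ≠ j → edge v i j = false →
      1 + 3 * (Finset.univ.filter fun k => edge v i k = true ∧ edge v j k = true).card +
        (3 - deg v i) * (3 - deg v j) = ∑ k, (3 - deg v k)) →
    ∀ i j : Fin 4, i ≠ j → edge v i j = true := by
  decide +kernel

theorem graph_complete (E : Fin 4 → Fin 4 → Prop) [DecidableRel E] (hirr : ∀ i, ¬ E i i)
    (hsymm : ∀ i j, E i j → E j i) (c : Fin 4 → ℕ)
    (hc : ∀ i, c i + (Finset.univ.filter (E i)).card = 3)
    (h : ∀ i j, i ≠ j → ¬ E i j →
      1 + 3 * (Finset.univ.filter fun k => E i k ∧ E j k).card + c i * c j = ∑ k, c k) :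
    ∀ i j, i ≠ j → E i j := by
  let v : Fin 6 → Bool := ![decide (E 0 1), decide (E 0 2), decide (E 0 3), decide (E 1 2), decide (E 1 3), decide (E 2 3)]
  have hv : ∀ i j, edge v i j = decide (E i j) := by
    intro i j
    fin_cases i <;> fin_cases j <;>
      simp only [edge, v, Fin.isValue, Fin.zero_eta, Fin.mk_one, Fin.reduceFinMk, Matrix.cons_val] <;>
      first
        | exact decide_eq_decide.mpr ⟨hsymm _ _, hsymm _ _⟩
        | rfl
        | exact (decide_eq_false (hirr _)).symm
  have hdeg : ∀ i, deg v i = (Finset.univ.filter (E i)).card := fun i => by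
    rw [deg]; congr 1; ext j; simp [hv]
  have hc' : ∀ i, 3 - deg v i = c i := fun i => by rw [hdeg]; have := hc i; omega
  have := only_complete v fun i j hij he => by
    rw [hv, decide_eq_false_iff_not] at he
    simp only [hc', hv, decide_eq_true_eq]
    exact h i j hij he
  intro i j hij
  simpa [hv] using this i j hij

open scoped Classical in
/-- Twelve neighbours: the closed neighbourhoods agree along edges. -/
theorem closed_of_twelve [Fintype (Sylow 3 G)] (hn : Nat.card (Sylow 3 G) = 22)
    (hm : ∀ A : Sylow 3 G, (nbr A).card = 12) (P R : Sylow 3 G) (hR : Adj P R) :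
    insert R (nbr R) = insert P (nbr P) := by
  have hΩ : Fintype.card (Sylow 3 G) = 22 := by rw [← Nat.card_eq_fintype_card]; exact hn
  let cl : Sylow 3 G → SylowClasses P := Quotient.mk''
  have hinvadj : ∀ Q R, cl R = cl Q → Adj P Q → Adj P R := by
    intro Q R h ha
    obtain ⟨y, hy, rfl⟩ := classes_eq_iff.mp h
    rw [← adj_smul y, smul_self_of_mem hy] at ha
    exact ha
  have hfib : ∀ Q, Adj P Q → (Finset.univ.filter fun A => cl A = cl Q).card = 3 := fun Q hQ => by
    refine Eq.trans ?_ ((card_orbit_sylow P Q).trans hQ)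
    rw [← Set.ncard_coe_finset, Nat.card_coe_set_eq, ← classes_fiber P Q]
    congr 1
    ext A
    simp [cl]
  -- the four small classes
  let C4 := (nbr P).image cl
  have hC4 : C4.card = 4 := by
    have h := Finset.card_eq_sum_card_image cl (nbr P)
    rw [hm, Finset.sum_congr rfl (g := fun _ => 3) (fun c hc => ?_), Finset.sum_const, smul_eq_mul] at h
    · simp only [C4]; omega
    · obtain ⟨Q, hQ, rfl⟩ := Finset.mem_image.mp hc
      refine Eq.trans ?_ (hfib Q (mem_nbr.mp hQ))
      congr 1
      ext A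
      simp only [Finset.mem_filter, Finset.mem_univ, true_and, mem_nbr]
      exact ⟨fun h => h.2, fun h => ⟨hinvadj Q A h (mem_nbr.mp hQ), h⟩⟩
  let e : Fin 4 ≃ {c // c ∈ C4} := (finCongr hC4.symm).trans C4.equivFin.symm
  have hsel : ∀ i, ∃ Q, Adj P Q ∧ cl Q = (e i).1 := fun i => by
    obtain ⟨Q, hQ, h⟩ := Finset.mem_image.mp (e i).2
    exact ⟨Q, mem_nbr.mp hQ, h⟩
  choose Q hQ hQc using hsel
  let T : Fin 4 → Finset (Sylow 3 G) := fun i => Finset.univ.filter fun A => cl A = cl (Q i)
  have hT : ∀ i, (T i).card = 3 := fun i => hfib _ (hQ i)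
  have hTmem : ∀ i A, A ∈ T i ↔ cl A = cl (Q i) := fun i A => by simp [T]
  have hTadj : ∀ i, ∀ A ∈ T i, Adj P A := fun i A hA => hinvadj _ _ ((hTmem i A).mp hA) (hQ i)
  have hTinj : ∀ i j A, A ∈ T i → A ∈ T j → i = j := fun i j A hi hj => by
    apply e.injective
    apply Subtype.ext
    rw [← hQc i, ← hQc j, ← (hTmem i A).mp hi, (hTmem j A).mp hj]
  have hnbrP : nbr P = Finset.univ.biUnion T := by
    ext A
    simp only [Finset.mem_biUnion, Finset.mem_univ, true_and, mem_nbr]
    refine ⟨fun hA => ⟨e.symm ⟨cl A, Finset.mem_image_of_mem cl (mem_nbr.mpr hA)⟩, ?_⟩,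
      fun ⟨i, hi⟩ => hTadj i A hi⟩
    rw [hTmem, hQc, e.apply_symm_apply]
  have hdisj : Set.PairwiseDisjoint (↑(Finset.univ : Finset (Fin 4))) T := fun i _ j _ hij =>
    Finset.disjoint_left.mpr fun A hi hj => hij (hTinj i j A hi hj)
  -- the class of nine
  let O := (insert P (nbr P))ᶜ
  have hO : O.card = 9 := by
    rw [Finset.card_compl, Finset.card_insert_of_notMem (fun hh => not_adj_self P (mem_nbr.mp hh)), hm, hΩ]
  have hOmem : ∀ A, A ∈ O ↔ A ≠ P ∧ ¬ Adj P A := fun A => by
    simp [O, mem_nbr, not_or]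
  obtain ⟨S₀, hS₀⟩ : O.Nonempty := Finset.card_pos.mp (by omega)
  have hOinv : ∀ y ∈ (P : Subgroup G), ∀ A, y • A ∈ O ↔ A ∈ O := by
    intro y hy A
    have h1 : y • A = P ↔ A = P := by
      conv_lhs => rw [← smul_self_of_mem hy]
      exact smul_left_cancel_iff y
    have h2 : Adj P (y • A) ↔ Adj P A := by
      conv_lhs => rw [← smul_self_of_mem hy, adj_smul]
    rw [hOmem, hOmem, ne_eq, h1, h2]
  have hOtr : ∀ S ∈ O, ∃ y ∈ (P : Subgroup G), y • S₀ = S := by
    intro S hS
    have hsub : (Finset.univ.filter fun A => cl A = cl S₀) = O := by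
      refine Finset.eq_of_subset_of_card_le (fun A hA => ?_) ?_
      · simp only [Finset.mem_filter, Finset.mem_univ, true_and] at hA
        obtain ⟨y, hy, rfl⟩ := classes_eq_iff.mp hA
        exact (hOinv y hy S₀).mpr hS₀
      · rw [hO, ← Set.ncard_coe_finset]
        refine le_of_eq ?_
        rw [← (card_orbit_sylow P S₀).trans (not_adj hn ((hOmem S₀).mp hS₀).1 ((hOmem S₀).mp hS₀).2),
          Nat.card_coe_set_eq, ← classes_fiber P S₀]
        congr 1
        ext A
        simp [cl]
    rw [← hsub] at hS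
    exact classes_eq_iff.mp (Finset.mem_filter.mp hS).2
  have hTinv : ∀ y ∈ (P : Subgroup G), ∀ i A, y • A ∈ T i ↔ A ∈ T i := by
    intro y hy i A
    rw [hTmem, hTmem]
    have : cl (y • A) = cl A := classes_eq_iff.mpr ⟨y, hy, rfl⟩
    rw [this]
  -- same class: adjacent
  have hsame : ∀ i, ∀ A ∈ T i, A ≠ Q i → Adj (Q i) A := by
    intro i A hA hne
    refine adj_of_le hne ((P : Subgroup G) ⊓ (Q i : Subgroup G)) ?_ (inf_le_orbit (hQ i) ((hTmem i A).mp hA))
    rw [inf_relIndex_right]
    exact (hQ i).symm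
  -- two classes: all or none
  have htrans : ∀ i j, (∃ A ∈ T j, ¬ Adj (Q i) A) → i ≠ j → ∀ A ∈ T j, ∀ B ∈ T j,
      ∃ d ∈ (P : Subgroup G), d • Q i = Q i ∧ d • A = B := by
    rintro i j ⟨A₀, hA₀, hna⟩ hij A hA B hB
    let Di := ((Q i : Subgroup G).subgroupOf (P : Subgroup G))
    let Dj := ((Q j : Subgroup G).subgroupOf (P : Subgroup G))
    have : Dj.Normal := adj_normal (hQ j)
    have hnle : ¬ Di ≤ Dj := by
      intro hle
      refine hna (adj_of_le (fun e => hij ?_) ((P : Subgroup G) ⊓ (Q i : Subgroup G)) ?_ ?_)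
      · exact hTinj i j A₀ ((hTmem i A₀).mpr (by rw [e])) hA₀
      · rw [inf_relIndex_right]; exact (hQ i).symm
      · exact fun d hd => inf_le_orbit (hQ j) ((hTmem j A₀).mp hA₀) ⟨hd.1, hle (x := ⟨d, hd.1⟩) hd.2⟩
    have htop : Di ⊔ Dj = ⊤ := by
      have hd : (Di ⊔ Dj).index ∣ 3 := by
        refine (index_dvd_of_le (le_sup_right : Dj ≤ Di ⊔ Dj)).trans ?_
        exact dvd_of_eq (hQ j)
      rcases (Fact.out : Nat.Prime 3).eq_one_or_self_of_dvd _ hd with h | h
      · exact index_eq_one.mp h
      · exfalso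
        have hidx : Dj.index = 3 := hQ j
        have h' := relIndex_mul_index (le_sup_right : Dj ≤ Di ⊔ Dj)
        rw [h, hidx] at h'
        have h1 : Dj.relIndex (Di ⊔ Dj) = 1 := by omega
        exact hnle (le_sup_left.trans (relIndex_eq_one.mp h1))
    obtain ⟨y, hy, hyA⟩ := classes_eq_iff.mp (((hTmem j B).mp hB).trans ((hTmem j A).mp hA).symm)
    have hyy : (⟨y, hy⟩ : (P : Subgroup G)) ∈ ((Di ⊔ Dj : Subgroup (P : Subgroup G)) : Set (P : Subgroup G)) := by
      rw [htop]; trivial
    rw [Subgroup.mul_normal Di Dj] at hyy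
    obtain ⟨d, hd, f, hf, hdf⟩ := Set.mem_mul.mp hyy
    refine ⟨d, d.2, smul_self_of_mem hd, ?_⟩
    have hfA : (f : G) • A = A :=
      smul_self_of_mem (inf_le_orbit (hQ j) ((hTmem j A).mp hA) ⟨f.2, hf⟩)
    rw [← hyA, ← show ((d : G) * (f : G)) = y from congrArg Subtype.val hdf, mul_smul, hfA]
  let E : Fin 4 → Fin 4 → Prop := fun i j => i ≠ j ∧ Adj (Q i) (Q j)
  have hall : ∀ i j, i ≠ j → ∀ A ∈ T j, (Adj (Q i) A ↔ E i j) := by
    intro i j hij A hA
    have hQj : Q j ∈ T j := (hTmem j _).mpr rfl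
    constructor
    · intro ha
      refine ⟨hij, ?_⟩
      by_contra hn'
      obtain ⟨d, hd, hdi, hdA⟩ := htrans i j ⟨Q j, hQj, hn'⟩ hij A hA (Q j) hQj
      rw [← adj_smul d, hdi, hdA] at ha
      exact hn' ha
    · rintro ⟨-, hE⟩
      by_contra ha
      obtain ⟨d, hd, hdi, hdA⟩ := htrans i j ⟨A, hA, ha⟩ hij (Q j) hQj A hA
      rw [← adj_smul d, hdi, hdA] at hE
      exact ha hE
  -- counts
  let c : Fin 4 → ℕ := fun i => ((T i).filter (Adj S₀)).card
  have hcS : ∀ i, ∀ S ∈ O, ((T i).filter (Adj S)).card = c i := by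
    intro i S hS
    obtain ⟨y, hy, rfl⟩ := hOtr S hS
    refine Finset.card_bij (fun A _ => y⁻¹ • A) (fun A hA => ?_) (fun a _ b _ h => MulAction.injective _ h)
      (fun A hA => ⟨y • A, ?_, inv_smul_smul y A⟩)
    · simp only [Finset.mem_filter] at hA ⊢
      refine ⟨(hTinv _ (inv_mem hy) i A).mpr hA.1, ?_⟩
      rw [← adj_smul y, smul_inv_smul]; exact hA.2
    · simp only [Finset.mem_filter] at hA ⊢
      exact ⟨(hTinv y hy i A).mpr hA.1, (adj_smul y).mpr hA.2⟩
  have hQO : ∀ i, (O.filter (Adj (Q i))).card = 3 * c i := by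
    intro i
    have hconst : ∀ A ∈ T i, (O.filter (Adj A)).card = (O.filter (Adj (Q i))).card := by
      intro A hA
      obtain ⟨y, hy, rfl⟩ := classes_eq_iff.mp ((hTmem i A).mp hA)
      refine Finset.card_bij (fun S _ => y⁻¹ • S) (fun S hS => ?_) (fun a _ b _ h => MulAction.injective _ h)
        (fun S hS => ⟨y • S, ?_, inv_smul_smul y S⟩)
      · simp only [Finset.mem_filter] at hS ⊢
        refine ⟨(hOinv _ (inv_mem hy) S).mpr hS.1, ?_⟩
        rw [← adj_smul y, smul_inv_smul]; exact hS.2
      · simp only [Finset.mem_filter] at hS ⊢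
        exact ⟨(hOinv y hy S).mpr hS.1, (adj_smul y).mpr hS.2⟩
    have hd := Finset.sum_card_bipartiteAbove_eq_sum_card_bipartiteBelow (s := T i) (t := O) Adj
    simp only [Finset.bipartiteAbove] at hd
    rw [Finset.sum_congr rfl (g := fun _ => (O.filter (Adj (Q i))).card) (fun A hA => hconst A hA),
      Finset.sum_congr rfl (f := fun S => (Finset.bipartiteBelow Adj (T i) S).card) (g := fun _ => c i)
        (fun S hS => ?_), Finset.sum_const, Finset.sum_const, hT, hO, smul_eq_mul, smul_eq_mul] at hd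
    · omega
    · rw [Finset.bipartiteBelow, ← hcS i S hS]
      congr 1
      exact Finset.filter_congr fun A _ => adj_comm
  have hsplit : ∀ (p : Sylow 3 G → Prop) [DecidablePred p], (Finset.univ.filter p).card =
      (if p P then 1 else 0) + ∑ j, ((T j).filter p).card + (O.filter p).card := by
    intro p _
    have hu : (Finset.univ : Finset (Sylow 3 G)) = (insert P (nbr P)) ∪ O := by
      ext A; simp only [Finset.mem_univ, true_iff, Finset.mem_union, O, Finset.mem_compl]; exact em _
    rw [hu, Finset.filter_union, Finset.card_union_of_disjoint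
      (Finset.disjoint_filter_filter disjoint_compl_right), Finset.filter_insert, hnbrP,
      Finset.filter_biUnion]
    congr 1
    have hcb : (Finset.univ.biUnion fun j => (T j).filter p).card = ∑ j, ((T j).filter p).card :=
      Finset.card_biUnion fun i _ j _ hij => Finset.disjoint_filter_filter (hdisj (by simp) (by simp) hij)
    by_cases hp : p P
    · rw [if_pos hp, if_pos hp, Finset.card_insert_of_notMem, hcb, add_comm]
      intro hh
      obtain ⟨j, -, hj⟩ := Finset.mem_biUnion.mp hh
      exact not_adj_self P (hTadj j P (Finset.mem_filter.mp hj).1)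
    · rw [if_neg hp, if_neg hp, hcb, zero_add]
  have hrow : ∀ i j, ((T j).filter (Adj (Q i))).card =
      if j = i then 2 else if E i j then 3 else 0 := by
    intro i j
    by_cases hji : j = i
    · subst hji
      rw [if_pos rfl]
      have : (T j).filter (Adj (Q j)) = (T j).erase (Q j) := by
        ext A
        simp only [Finset.mem_filter, Finset.mem_erase]
        exact ⟨fun h => ⟨h.2.ne, h.1⟩, fun h => ⟨h.2, hsame j A h.2 h.1⟩⟩
      rw [this, Finset.card_erase_of_mem ((hTmem j _).mpr rfl), hT]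
    · rw [if_neg hji]
      by_cases hE : E i j
      · rw [if_pos hE, Finset.filter_true_of_mem fun A hA => (hall i j (Ne.symm hji) A hA).mpr hE, hT]
      · rw [if_neg hE, Finset.filter_false_of_mem fun A hA h => hE ((hall i j (Ne.symm hji) A hA).mp h),
          Finset.card_empty]
  have hEirr : ∀ i, ¬ E i i := fun i h => h.1 rfl
  have hEsymm : ∀ i j, E i j → E j i := fun i j h => ⟨h.1.symm, h.2.symm⟩
  have hdeg : ∀ i, c i + (Finset.univ.filter (E i)).card = 3 := by
    intro i
    have h : (nbr (Q i)).card = _ := hsplit (Adj (Q i))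
    rw [hm, if_pos (hQ i).symm, hQO i, Finset.sum_congr rfl fun j _ => hrow i j] at h
    rw [Finset.sum_congr rfl (g := fun j => (if j = i then 2 else 0) + 3 * (if E i j then 1 else 0))
      (fun j _ => by
        by_cases hji : j = i
        · subst hji; simp [hEirr]
        · simp only [if_neg hji]; split_ifs <;> simp), Finset.sum_add_distrib, ← Finset.mul_sum,
      Finset.sum_ite_eq' , Finset.sum_boole] at h
    simp only [Finset.mem_univ, if_true, Nat.cast_id] at h
    have e : (Finset.univ.filter fun x => E i x).card = (Finset.univ.filter (E i)).card := by congr!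
    omega
  have hmu : (Finset.univ.filter fun A => Adj P A ∧ Adj S₀ A).card = ∑ k, c k := by
    rw [hsplit (fun A => Adj P A ∧ Adj S₀ A), if_neg (fun h => not_adj_self P h.1),
      Finset.filter_false_of_mem (s := O) fun A hA h => ((hOmem A).mp hA).2 h.1, Finset.card_empty,
      zero_add, add_zero]
    exact Finset.sum_congr rfl fun k _ => by
      congr 1
      exact Finset.filter_congr fun A hA => and_iff_right (hTadj k A hA)
  have hnon : ∀ i j, i ≠ j → ¬ E i j →
      1 + 3 * (Finset.univ.filter fun k => E i k ∧ E j k).card + c i * c j = ∑ k, c k := by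
    intro i j hij hE
    -- common neighbours of the pair
    obtain ⟨g, hg⟩ := exists_smul_eq G P (Q i)
    have hS : g⁻¹ • Q j ∈ O := by
      rw [hOmem]
      refine ⟨fun h => ?_, fun h => hE ⟨hij, ?_⟩⟩
      · have : Q j = Q i := by rw [← hg, ← h, smul_inv_smul]
        exact hij (hTinj i j (Q j) ((hTmem i _).mpr (by rw [this])) ((hTmem j _).mpr rfl))
      · rw [← adj_smul g, hg, smul_inv_smul] at h; exact h
    obtain ⟨y, hy, hyS⟩ := hOtr _ hS
    have h1 : (g * y) • P = Q i := by rw [mul_smul, smul_self_of_mem hy, hg]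
    have h2 : (g * y) • S₀ = Q j := by rw [mul_smul, hyS, smul_inv_smul]
    have hcommon : (Finset.univ.filter fun A => Adj (Q i) A ∧ Adj (Q j) A).card = ∑ k, c k := by
      rw [← hmu]
      symm
      refine Finset.card_bij (fun A _ => (g * y) • A) (fun A hA => ?_)
        (fun a _ b _ h => MulAction.injective _ h) (fun A hA => ⟨(g * y)⁻¹ • A, ?_, smul_inv_smul _ A⟩)
      · simp only [Finset.mem_filter, Finset.mem_univ, true_and] at hA ⊢
        rw [← h1, ← h2, adj_smul, adj_smul]; exact hA
      · simp only [Finset.mem_filter, Finset.mem_univ, true_and] at hA ⊢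
        rw [← adj_smul (g * y), ← adj_smul (g * y) (A := S₀), smul_inv_smul, h1, h2]; exact hA
    rw [hsplit (fun A => Adj (Q i) A ∧ Adj (Q j) A), if_pos ⟨(hQ i).symm, (hQ j).symm⟩] at hcommon
    have hX : (O.filter fun A => Adj (Q i) A ∧ Adj (Q j) A).card = c i * c j := by
      have hconst : ∀ a ∈ T i ×ˢ T j,
          (O.filter fun A => Adj a.1 A ∧ Adj a.2 A).card =
            (O.filter fun A => Adj (Q i) A ∧ Adj (Q j) A).card := by
        rintro ⟨A, B⟩ hAB
        rw [Finset.mem_product] at hAB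
        obtain ⟨y, hy, rfl⟩ := classes_eq_iff.mp ((hTmem i A).mp hAB.1)
        obtain ⟨d, hd, hdi, hdj⟩ := htrans i j ⟨Q j, (hTmem j _).mpr rfl, fun h => hE ⟨hij, h⟩⟩ hij
          (Q j) ((hTmem j _).mpr rfl) (y⁻¹ • B) ((hTinv _ (inv_mem hy) j B).mpr hAB.2)
        have hz : y * d ∈ (P : Subgroup G) := mul_mem hy hd
        have hzi : (y * d) • Q i = y • Q i := by rw [mul_smul, hdi]
        have hzj : (y * d) • Q j = B := by rw [mul_smul, hdj, smul_inv_smul]
        refine Finset.card_bij (fun S _ => (y * d)⁻¹ • S) (fun S hS => ?_)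
          (fun a _ b _ h => MulAction.injective _ h) (fun S hS => ⟨(y * d) • S, ?_, inv_smul_smul _ S⟩)
        · simp only [Finset.mem_filter] at hS ⊢
          refine ⟨(hOinv _ (inv_mem hz) S).mpr hS.1, ?_⟩
          rw [← adj_smul (y * d), ← adj_smul (y * d) (A := Q j), smul_inv_smul, hzi, hzj]; exact hS.2
        · simp only [Finset.mem_filter] at hS ⊢
          refine ⟨(hOinv _ hz S).mpr hS.1, ?_⟩
          rw [← hzi, ← hzj, adj_smul, adj_smul]; exact hS.2
      have hd := Finset.sum_card_bipartiteAbove_eq_sum_card_bipartiteBelow (s := T i ×ˢ T j) (t := O)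
        (fun a A => Adj a.1 A ∧ Adj a.2 A)
      simp only [Finset.bipartiteAbove] at hd
      rw [Finset.sum_congr rfl (g := fun _ => (O.filter fun A => Adj (Q i) A ∧ Adj (Q j) A).card)
          (fun a ha => hconst a ha),
        Finset.sum_congr rfl
          (f := fun S => (Finset.bipartiteBelow (fun a A => Adj a.1 A ∧ Adj a.2 A) (T i ×ˢ T j) S).card)
          (g := fun _ => c i * c j) (fun S hS => ?_),
        Finset.sum_const, Finset.sum_const, Finset.card_product, hT, hT, hO, smul_eq_mul, smul_eq_mul] at hd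
      · omega
      · rw [Finset.bipartiteBelow, Finset.filter_product (fun a => Adj a S) (fun b => Adj b S),
          Finset.card_product, ← hcS i S hS, ← hcS j S hS]
        congr 2 <;> exact Finset.filter_congr fun A _ => adj_comm
    rw [hX, Finset.sum_congr rfl (g := fun k => 3 * (if E i k ∧ E j k then 1 else 0)) (fun k _ => ?_),
      ← Finset.mul_sum, Finset.sum_boole] at hcommon
    · simpa using hcommon
    · by_cases hki : k = i
      · subst hki
        rw [if_neg (fun h => hEirr k h.1), mul_zero, Finset.card_eq_zero, Finset.filter_eq_empty_iff]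
        exact fun A hA h => hE (hEsymm j k ((hall j k hij.symm A hA).mp h.2))
      by_cases hkj : k = j
      · subst hkj
        rw [if_neg (fun h => hEirr k h.2), mul_zero, Finset.card_eq_zero, Finset.filter_eq_empty_iff]
        exact fun A hA h => hE ((hall i k hij A hA).mp h.1)
      by_cases hh : E i k ∧ E j k
      · rw [if_pos hh, mul_one, Finset.filter_true_of_mem fun A hA =>
          ⟨(hall i k (Ne.symm hki) A hA).mpr hh.1, (hall j k (Ne.symm hkj) A hA).mpr hh.2⟩, hT]
      · rw [if_neg hh, mul_zero, Finset.card_eq_zero, Finset.filter_eq_empty_iff]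
        exact fun A hA h => hh ⟨(hall i k (Ne.symm hki) A hA).mp h.1, (hall j k (Ne.symm hkj) A hA).mp h.2⟩
  have hcomplete := graph_complete E hEirr hEsymm c hdeg hnon
  have hbase : ∀ i, insert (Q i) (nbr (Q i)) = insert P (nbr P) := by
    intro i
    symm
    refine Finset.eq_of_subset_of_card_le (fun A hA => ?_) (le_of_eq ?_)
    · rcases Finset.mem_insert.mp hA with rfl | hA
      · exact Finset.mem_insert_of_mem (mem_nbr.mpr (hQ i).symm)
      · rw [hnbrP, Finset.mem_biUnion] at hA
        obtain ⟨j, -, hj⟩ := hA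
        by_cases hAi : A = Q i
        · exact hAi ▸ Finset.mem_insert_self _ _
        · refine Finset.mem_insert_of_mem (mem_nbr.mpr ?_)
          by_cases hji : j = i
          · subst hji; exact hsame j A hj hAi
          · exact (hall i j (Ne.symm hji) A hj).mpr (hcomplete i j (Ne.symm hji))
    · rw [Finset.card_insert_of_notMem (fun hh => not_adj_self _ (mem_nbr.mp hh)),
        Finset.card_insert_of_notMem (fun hh => not_adj_self _ (mem_nbr.mp hh)), hm, hm]
  have hRm : R ∈ nbr P := mem_nbr.mpr hR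
  rw [hnbrP, Finset.mem_biUnion] at hRm
  obtain ⟨i, -, hRi⟩ := hRm
  obtain ⟨y, hy, rfl⟩ := classes_eq_iff.mp ((hTmem i R).mp hRi)
  ext A
  have h1 : A ∈ insert (y • Q i) (nbr (y • Q i)) ↔ y⁻¹ • A ∈ insert (Q i) (nbr (Q i)) := by
    simp only [Finset.mem_insert, mem_nbr]
    rw [inv_smul_eq_iff, ← adj_smul y (A := Q i), smul_inv_smul]
  rw [h1, hbase]
  simp only [Finset.mem_insert, mem_nbr]
  rw [inv_smul_eq_iff, smul_self_of_mem hy]
  refine or_congr_right ?_
  rw [← adj_smul y, smul_self_of_mem hy, smul_inv_smul]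

/-- Sylow 3-subgroups of a faithful group with 22 of them have order 3. -/
theorem card_sylow_three (hn : Nat.card (Sylow 3 G) = 22) (hf : FaithfulSylow 3 G) (P : Sylow 3 G) :
    Nat.card (P : Subgroup G) = 3 := by
  classical
  have := Fintype.ofFinite (Sylow 3 G)
  have hΩ : Fintype.card (Sylow 3 G) = 22 := by rw [← Nat.card_eq_fintype_card]; exact hn
  rcases card_nbr_cases hn P with hm | hm | hm
  · -- all pairs adjacent
    have hadj : ∀ A B : Sylow 3 G, B ≠ A → Adj A B := by
      intro A B h
      have : nbr A = Finset.univ.erase A := by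
        refine Finset.eq_of_subset_of_card_le (fun Q hQ => Finset.mem_erase.mpr ⟨(mem_nbr.mp hQ).ne, Finset.mem_univ _⟩) ?_
        rw [Finset.card_erase_of_mem (Finset.mem_univ _), Finset.card_univ, hΩ, card_nbr_eq A P, hm]
      exact mem_nbr.mp (this ▸ Finset.mem_erase.mpr ⟨h, Finset.mem_univ _⟩)
    have hab : ∀ R : Sylow 3 G, IsMulCommutative (R : Subgroup G) := by
      intro R
      refine ⟨⟨fun a b => Subtype.ext ?_⟩⟩
      obtain ⟨a, ha⟩ := a
      obtain ⟨b, hb⟩ := b
      change a * b = b * a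
      suffices h : a * b * a⁻¹ * b⁻¹ = 1 by
        calc a * b = (a * b * a⁻¹ * b⁻¹) * (b * a) := by group
          _ = b * a := by rw [h, one_mul]
      refine hf.eq_one fun Q => ?_
      by_cases hQ : Q = R
      · subst hQ; exact smul_self_of_mem (mul_mem (mul_mem (mul_mem ha hb) (inv_mem ha)) (inv_mem hb))
      apply smul_self_of_mem
      have := adj_normal (hadj R Q hQ)
      have hcomm : IsCyclic ((R : Subgroup G) ⧸ (Q : Subgroup G).subgroupOf (R : Subgroup G)) :=
        isCyclic_of_prime_card (p := 3) (hadj R Q hQ)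
      let cg := hcomm.commGroup
      have h1 : ((⟨a, ha⟩ * ⟨b, hb⟩ * ⟨a, ha⟩⁻¹ * ⟨b, hb⟩⁻¹ : (R : Subgroup G)) :
          (R : Subgroup G) ⧸ (Q : Subgroup G).subgroupOf (R : Subgroup G)) = 1 := by
        simp only [QuotientGroup.mk_mul, QuotientGroup.mk_inv]
        rw [cg.mul_comm (⟨a, ha⟩ : (R : Subgroup G)) (⟨b, hb⟩ : (R : Subgroup G))]
        group
      rw [QuotientGroup.eq_one_iff] at h1
      exact h1
    obtain ⟨A, B, hAB⟩ := Cfsg.Agent.S1009.result 3 hab
    have hinf : (⨅ R : Sylow 3 G, (R : Subgroup G)) = ⊥ := by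
      rw [eq_bot_iff]
      intro x hx
      rw [mem_bot]
      exact hf.eq_one fun Q => smul_self_of_mem (mem_iInf.mp hx Q)
    rw [hinf] at hAB
    have hdvd : 3 ∣ Nat.card (A : Subgroup G) := by
      obtain ⟨C, hC⟩ : ∃ C, C ≠ A := by
        have : Nontrivial (Sylow 3 G) := Finite.one_lt_card_iff_nontrivial.mp (by omega)
        exact exists_ne A
      exact (Eq.symm (hadj A C hC)).dvd.trans (relIndex_dvd_card _ _)
    have hne : B ≠ A := by
      rintro rfl
      rw [inf_idem] at hAB
      rw [hAB, card_bot] at hdvd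
      norm_num at hdvd
    have h := hadj A B hne
    rw [Adj, ← inf_relIndex_left, hAB, relIndex_bot_left] at h
    exact (card_sylow_subgroup_congr P A).trans h
  · exfalso
    have h := card_dvd_of_closed 12 (fun A => (card_nbr_eq A P).trans hm)
      (fun A B hAB => closed_of_twelve hn (fun C => (card_nbr_eq C P).trans hm) A B hAB)
    rw [hΩ] at h
    norm_num at h
  · exfalso
    have h := card_dvd_of_closed 3 (fun A => (card_nbr_eq A P).trans hm) (fun A B hAB => ?_)
    · rw [hΩ] at h
      norm_num at h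
    · symm
      refine Finset.eq_of_subset_of_card_le (fun C hC => ?_) ?_
      · rcases Finset.mem_insert.mp hC with rfl | hC
        · exact Finset.mem_insert_of_mem (mem_nbr.mpr hAB.symm)
        · by_cases hCB : C = B
          · exact hCB ▸ Finset.mem_insert_self _ _
          refine Finset.mem_insert_of_mem (mem_nbr.mpr (adj_of_le hCB ((A : Subgroup G) ⊓ (B : Subgroup G))
            (by rw [inf_relIndex_right]; exact hAB.symm) (inf_le_orbit hAB ?_)))
          have hfull : (Finset.univ.filter fun D => (Quotient.mk'' D : SylowClasses A) = Quotient.mk'' B) = nbr A := by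
            refine Finset.eq_of_subset_of_card_le (fun D hD => ?_) (le_of_eq ?_)
            · obtain ⟨y, hy, rfl⟩ := classes_eq_iff.mp (Finset.mem_filter.mp hD).2
              rw [mem_nbr, ← adj_smul y⁻¹, inv_smul_smul, smul_self_of_mem (inv_mem hy)]
              exact hAB
            · rw [card_nbr_eq A P, hm]
              refine ((card_orbit_sylow A B).trans hAB).symm.trans ?_
              rw [← Set.ncard_coe_finset, Nat.card_coe_set_eq, ← classes_fiber A B]
              congr 1
              ext D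
              simp
          rw [← hfull] at hC
          exact (Finset.mem_filter.mp hC).2
      · rw [Finset.card_insert_of_notMem (fun hh => not_adj_self _ (mem_nbr.mp hh)),
          Finset.card_insert_of_notMem (fun hh => not_adj_self _ (mem_nbr.mp hh)), card_nbr_eq B P, card_nbr_eq A P]

end CfsgLib.Sylow22
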